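import Cfsg.Agent.Lib.Helper50.STADefs
import Cfsg.Agent.Lib.Helper50.STBChain

/-!
# STA ladder, rung CNTA: the number of flags opposite a given flag
-/

set_option autoImplicit false

namespace Cfsg.Agent.Lib.Helper72.STA

open Cfsg.Agent.Lib.Helper50 Cfsg.Agent.Lib.Helper50.STB Cfsg.Agent.Lib.Helper50.STA

variable {F V : Type*} [Field F] [AddCommGroup V] [Module F V]

theorem sup_span_eq [FiniteDimensional F V] {X W : Submodule F V} {k : ℕ} {v : V}
    (hk : Module.finrank F X = k) (h1 : X ≤ W) (h2 : Module.finrank F W = k + 1) (h3 : v ∈ W)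
    (h4 : v ∉ X) : X ⊔ Submodule.span F {v} = W := by
  apply Submodule.eq_of_le_of_finrank_le
  · apply sup_le h1
    rw [Submodule.span_singleton_le_iff_mem]; exact h3
  · by_contra hlt
    have h5 : X = X ⊔ Submodule.span F {v} :=
      Submodule.eq_of_le_of_finrank_le le_sup_left (by omega)
    apply h4
    rw [h5]
    exact le_sup_right (a := X) (Submodule.mem_span_singleton_self v)

theorem finrank_sup_span [FiniteDimensional F V] {X : Submodule F V} {k : ℕ} {v : V}
    (hk : Module.finrank F X = k) (hvX : v ∉ X) :
    Module.finrank F (X ⊔ Submodule.span F {v} : Submodule F V) = k + 1 := by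
  have hv0 : v ≠ 0 := fun h => hvX (h ▸ Submodule.zero_mem _)
  have h1 := Submodule.finrank_sup_add_finrank_inf_eq X (Submodule.span F {v})
  have h2 : X ⊓ Submodule.span F {v} = ⊥ := by
    rw [eq_bot_iff]
    rintro x ⟨hx1, hx2⟩
    obtain ⟨a, rfl⟩ := Submodule.mem_span_singleton.1 hx2
    by_cases ha : a = 0
    · simp [ha]
    · exfalso
      apply hvX
      have := Submodule.smul_mem _ a⁻¹ hx1
      rwa [smul_smul, inv_mul_cancel₀ ha, one_smul] at this
  rw [h2, finrank_bot, finrank_span_singleton hv0, hk] at h1
  omega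

theorem card_fibA [Finite F] [FiniteDimensional F V] (X H : Submodule F V) (k : ℕ) (hXH : X ≤ H)
    (hk : Module.finrank F X = k) (hH : Module.finrank F H + 1 = Module.finrank F V) :
    Nat.card {W : Submodule F V // X ≤ W ∧ Module.finrank F W = k + 1 ∧ ¬ W ≤ H}
      * Nat.card F ^ (k + 1) = Nat.card F ^ Module.finrank F V := by
  classical
  have hfinV : Finite V := Module.finite_of_finite F
  have hfinS : Finite (Submodule F V) := Finite.of_injective (fun X : Submodule F V => (X : Set V))
    SetLike.coe_injective
  set q := Nat.card F with hq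
  set b := Module.finrank F H with hb
  have hD : Nat.card {v : V // v ∉ H} + q ^ b = q ^ (b + 1) := by
    have h1 := card_diff (le_top : H ≤ ⊤)
    rw [card_sub, card_sub, finrank_top, ← hH, ← hb] at h1
    rw [← h1]
    congr 1
    apply Nat.card_congr
    apply Equiv.subtypeEquivRight
    intro v
    simp
  obtain ⟨r, hr⟩ : ∃ r, r + q ^ k = q ^ (k + 1) :=
    ⟨q ^ (k + 1) - q ^ k, Nat.sub_add_cancel (Nat.pow_le_pow_right Nat.card_pos (Nat.le_succ k))⟩
  have hW : Nat.card {v : V // v ∉ H}
      = Nat.card {W : Submodule F V // X ≤ W ∧ Module.finrank F W = k + 1 ∧ ¬ W ≤ H} * r := by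
    rw [← card_pairs (fun W : Submodule F V => X ≤ W ∧ Module.finrank F W = k + 1 ∧ ¬ W ≤ H)
      (fun W (v : V) => v ∈ W ∧ v ∉ X) r (by
        intro W hW
        have h1 := card_diff hW.1
        rw [card_sub, card_sub, hk, hW.2.1, ← hq] at h1
        omega)]
    apply Nat.card_congr
    refine
      { toFun := fun v => ⟨(X ⊔ Submodule.span F {v.1}, v.1), ⟨le_sup_left, ?_, ?_⟩, ?_, ?_⟩
        invFun := fun x => ⟨x.1.2, ?_⟩
        left_inv := ?_
        right_inv := ?_ }
    · exact finrank_sup_span hk (fun h => v.2 (hXH h))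
    · intro h
      exact v.2 (h (le_sup_right (a := X) (Submodule.mem_span_singleton_self v.1)))
    · exact le_sup_right (a := X) (Submodule.mem_span_singleton_self v.1)
    · exact fun h => v.2 (hXH h)
    · intro h
      apply x.2.1.2.2
      rw [← sup_span_eq hk x.2.1.1 x.2.1.2.1 x.2.2.1 x.2.2.2]
      apply sup_le hXH
      rw [Submodule.span_singleton_le_iff_mem]; exact h
    · rintro ⟨v, hv⟩
      rfl
    · rintro ⟨⟨W, v⟩, hWv⟩
      apply Subtype.ext
      apply Prod.ext
      · exact sup_span_eq hk hWv.1.1 hWv.1.2.1 hWv.2.1 hWv.2.2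
      · rfl
  set A := Nat.card {W : Submodule F V // X ≤ W ∧ Module.finrank F W = k + 1 ∧ ¬ W ≤ H}
  set D := Nat.card {v : V // v ∉ H}
  have hq2 : 2 ≤ q := by
    have : Nontrivial F := inferInstance
    exact Finite.one_lt_card
  obtain ⟨t, ht⟩ : ∃ t, q = t + 1 := ⟨q - 1, by omega⟩
  have ht0 : 0 < t := by omega
  have hr' : r = q ^ k * t := by
    have : r + q ^ k = q ^ k * t + q ^ k := by rw [hr, pow_succ]; nth_rewrite 2 [ht]; ring
    omega
  have hD' : D = q ^ b * t := by
    have : D + q ^ b = q ^ b * t + q ^ b := by rw [hD, pow_succ]; nth_rewrite 2 [ht]; ring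
    omega
  have h1 : (A * q ^ k) * t = (q ^ b) * t := by
    calc (A * q ^ k) * t = A * (q ^ k * t) := by ring
      _ = D := by rw [hW, hr']
      _ = (q ^ b) * t := hD'
  have h2 := Nat.eq_of_mul_eq_mul_right ht0 h1
  calc A * q ^ (k + 1) = (A * q ^ k) * q := by ring
    _ = q ^ b * q := by rw [h2]
    _ = q ^ Module.finrank F V := by rw [← hH]; ring

/-- the number of one-step extensions -/
theorem card_stepA [Finite F] [FiniteDimensional F V] (n : ℕ) (hV : Module.finrank F V = n)
    {c : ℕ → Submodule F V} (hc : IsCh (triv F V) n c) {j : ℕ} (hj : j < n) {X : Submodule F V}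
    (hX : Module.finrank F X = j) (h : c (n - j) ⊓ X = ⊥) :
    Nat.card {W : Submodule F V // X ≤ W ∧ Module.finrank F W = j + 1 ∧
        c (n - (j + 1)) ⊓ W = ⊥} = Nat.card F ^ (n - 1 - j) := by
  have hcc : c (n - (j + 1)) ≤ c (n - j) := hc.mono (by omega) (by omega)
  have hcX : c (n - (j + 1)) ⊓ X = ⊥ := by
    rw [eq_bot_iff, ← h]; exact inf_le_inf_right _ hcc
  have hHdim : Module.finrank F (X ⊔ c (n - (j + 1)) : Submodule F V) + 1
      = Module.finrank F V := by
    have h1 := Submodule.finrank_sup_add_finrank_inf_eq X (c (n - (j + 1)))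
    rw [inf_comm, hcX, finrank_bot, hX, hc.finrank (by omega)] at h1
    omega
  have hfib := card_fibA X (X ⊔ c (n - (j + 1))) j le_sup_left hX hHdim
  have hq : 0 < Nat.card F := Nat.card_pos
  have hcongr : Nat.card {W : Submodule F V // X ≤ W ∧ Module.finrank F W = j + 1 ∧
        c (n - (j + 1)) ⊓ W = ⊥}
      = Nat.card {W : Submodule F V // X ≤ W ∧ Module.finrank F W = j + 1 ∧
        ¬ W ≤ X ⊔ c (n - (j + 1))} := by
    apply Nat.card_congr
    apply Equiv.subtypeEquivRight
    intro W
    constructor
    · rintro ⟨h1, h2, h3⟩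
      refine ⟨h1, h2, ?_⟩
      intro hW
      have h4 := Submodule.finrank_sup_add_finrank_inf_eq W (c (n - (j + 1)))
      rw [inf_comm, h3, finrank_bot, h2, hc.finrank (by omega)] at h4
      have h5 : W ⊔ c (n - (j + 1)) ≤ X ⊔ c (n - (j + 1)) := sup_le hW le_sup_right
      have h6 := Submodule.finrank_mono h5
      omega
    · rintro ⟨h1, h2, h3⟩
      refine ⟨h1, h2, ?_⟩
      by_contra hne
      obtain ⟨v, hv, hv0⟩ := Submodule.exists_mem_ne_zero_of_ne_bot hne
      have hvX : v ∉ X := by
        intro hvX
        have : v ∈ c (n - (j + 1)) ⊓ X := ⟨hv.1, hvX⟩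
        rw [hcX] at this
        exact hv0 ((Submodule.mem_bot F).1 this)
      apply h3
      rw [← sup_span_eq hX h1 h2 hv.2 hvX]
      apply sup_le le_sup_left
      rw [Submodule.span_singleton_le_iff_mem]
      exact le_sup_right (a := X) hv.1
  rw [hcongr]
  have h7 : Nat.card F ^ Module.finrank F V = Nat.card F ^ (n - 1 - j) * Nat.card F ^ (j + 1) := by
    rw [← pow_add, hV]; congr 1; omega
  rw [h7] at hfib
  exact Nat.eq_of_mul_eq_mul_right (pow_pos hq _) hfib

theorem card_oppA_aux [Finite F] [FiniteDimensional F V] (n : ℕ) (hV : Module.finrank F V = n)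
    (c : ℕ → Submodule F V) (hc : IsCh (triv F V) n c) (j : ℕ) (hj : j ≤ n) :
    Nat.card {d : Ch (triv F V) j // ∀ i, i ≤ j → c (n - i) ⊓ d.1 i = ⊥}
      = Nat.card F ^ (∑ i ∈ Finset.range j, (n - 1 - i)) := by
  classical
  have hfinV : Finite V := Module.finite_of_finite F
  have hfinS : Finite (Submodule F V) := Finite.of_injective (fun X : Submodule F V => (X : Set V))
    SetLike.coe_injective
  induction j with
  | zero =>
    have hw : IsCh (triv F V) 0 (fun k => if k = 0 then (⊥ : Submodule F V) else ⊤) := by
      refine ⟨?_, ?_, ?_, ?_⟩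
      · intro k hk
        have : k = 0 := by omega
        subst this
        simp
      · intro k hk; omega
      · exact ts_triv _
      · intro k hk
        show (if k = 0 then (⊥ : Submodule F V) else ⊤) = ⊤
        rw [if_neg (by omega)]
    have : Nat.card {d : Ch (triv F V) 0 // ∀ i, i ≤ 0 → c (n - i) ⊓ d.1 i = ⊥} = 1 := by
      rw [Nat.card_eq_one_iff_unique]
      refine ⟨⟨?_⟩, ⟨⟨⟨_, hw⟩, ?_⟩⟩⟩
      · rintro ⟨d, hd⟩ ⟨d', hd'⟩
        apply Subtype.ext
        apply Subtype.ext
        apply d.2.ext d'.2
        intro k hk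
        have : k = 0 := by omega
        subst this
        rw [d.2.zero, d'.2.zero]
      · intro k hk
        have : k = 0 := by omega
        subst this
        simp
    rw [this]; simp
  | succ j ih =>
    have hj' : j < n := by omega
    have ih' := ih (by omega)
    set q := Nat.card F with hq
    have hfib : ∀ d : Ch (triv F V) j, (∀ i, i ≤ j → c (n - i) ⊓ d.1 i = ⊥) →
        Nat.card {W : Submodule F V // d.1 j ≤ W ∧ Module.finrank F W = j + 1 ∧
          c (n - (j + 1)) ⊓ W = ⊥} = q ^ (n - 1 - j) := by
      intro d hd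
      exact card_stepA n hV hc hj' (d.2.finrank le_rfl) (hd j le_rfl)
    have hcard : Nat.card {d : Ch (triv F V) (j + 1) // ∀ i, i ≤ j + 1 → c (n - i) ⊓ d.1 i = ⊥}
        = Nat.card {d : Ch (triv F V) j // ∀ i, i ≤ j → c (n - i) ⊓ d.1 i = ⊥}
          * q ^ (n - 1 - j) := by
      rw [← card_pairs (fun d : Ch (triv F V) j => ∀ i, i ≤ j → c (n - i) ⊓ d.1 i = ⊥)
        (fun d (W : Submodule F V) => d.1 j ≤ W ∧ Module.finrank F W = j + 1 ∧
          c (n - (j + 1)) ⊓ W = ⊥) _ hfib]
      apply Nat.card_congr
      refine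
        { toFun := fun d => ⟨(⟨Function.update d.1.1 (j + 1) ⊤, ?_⟩, d.1.1 (j + 1)), ?_, ?_, ?_, ?_⟩
          invFun := fun x => ⟨⟨Function.update x.1.1.1 (j + 1) x.1.2, ?_⟩, ?_⟩
          left_inv := ?_
          right_inv := ?_ }
      · refine ⟨?_, ?_, ?_, ?_⟩
        · intro k hk
          rw [Function.update_of_ne (by omega)]
          exact d.1.2.finrank (by omega)
        · intro k hk
          rw [Function.update_of_ne (by omega), Function.update_of_ne (by omega)]
          exact d.1.2.2.1 k (by omega)
        · exact ts_triv _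
        · intro k hk
          by_cases hk' : k = j + 1
          · rw [hk', Function.update_self]
          · rw [Function.update_of_ne hk']
            exact d.1.2.2.2.2 k (by omega)
      · intro k hk
        simp only
        rw [Function.update_of_ne (by omega)]
        exact d.2 k (by omega)
      · simp only
        rw [Function.update_of_ne (by omega)]
        exact d.1.2.2.1 j (by omega)
      · exact d.1.2.finrank le_rfl
      · exact d.2 (j + 1) le_rfl
      · refine ⟨?_, ?_, ?_, ?_⟩
        · intro k hk
          by_cases hk' : k = j + 1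
          · rw [hk', Function.update_self]; exact x.2.2.2.1
          · rw [Function.update_of_ne hk']
            exact x.1.1.2.finrank (by omega)
        · intro k hk
          by_cases hk' : k = j
          · rw [hk', Function.update_self, Function.update_of_ne (by omega)]
            exact x.2.2.1
          · rw [Function.update_of_ne (by omega), Function.update_of_ne (by omega)]
            exact x.1.1.2.2.1 k (by omega)
        · exact ts_triv _
        · intro k hk
          rw [Function.update_of_ne (by omega)]
          exact x.1.1.2.2.2.2 k (by omega)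
      · intro k hk
        simp only
        by_cases hk' : k = j + 1
        · rw [hk', Function.update_self]; exact x.2.2.2.2
        · rw [Function.update_of_ne hk']
          exact x.2.1 k (by omega)
      · rintro ⟨⟨d, hd⟩, hd'⟩
        apply Subtype.ext
        apply Subtype.ext
        simp
      · rintro ⟨⟨⟨d, hd⟩, W⟩, hx⟩
        apply Subtype.ext
        apply Prod.ext
        · apply Subtype.ext
          simp only [Function.update_idem]
          funext k
          by_cases hk' : k = j + 1
          · rw [hk', Function.update_self, hd.2.2.2 (j + 1) (by omega)]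
          · rw [Function.update_of_ne hk']
        · simp
    rw [hcard, ih', Finset.sum_range_succ, pow_add]

/-- rung CNTA -/
theorem card_oppA [Finite F] [FiniteDimensional F V] (n : ℕ) (hV : Module.finrank F V = n)
    (c : ℕ → Submodule F V) (hc : IsCh (triv F V) n c) :
    Nat.card {d : Ch (triv F V) n // OppA n c d.1} = Nat.card F ^ (∑ i ∈ Finset.range n, i) := by
  have h1 := card_oppA_aux n hV c hc n le_rfl
  rw [Finset.sum_range_reflect (fun i => i) n] at h1
  rw [← h1]
  apply Nat.card_congr
  apply Equiv.subtypeEquivRight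
  intro d
  constructor
  · intro h i hi
    exact h (n - i) i (by omega)
  · intro h j k hjk
    have := h k (by omega)
    rwa [show n - k = j by omega] at this

end Cfsg.Agent.Lib.Helper72.STA
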