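import Cfsg.Agent.Lib.Helper71.Gag.Defs

set_option autoImplicit false

namespace Cfsg.Agent.Lib.Helper72.Gag

open Cfsg.Agent.Lib.Helper71.Gag

theorem reg_disj {G : Type*} [Group G] {N H : Subgroup G} (hH : N.IsComplement' H) :
    ∀ z, z ∈ N → z ∈ H → z = 1 := by
  intro z hzN hzH
  exact (Subgroup.disjoint_def.mp hH.disjoint) hzN hzH

theorem reg {G : Type*} [Group G] [Finite G] {p : ℕ} [Fact p.Prime] {N : Subgroup G} [N.Normal]
    (D : Dat p N) (H : Subgroup G) (hH : N.IsComplement' H) :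
    ∀ h ∈ H, ∀ x ∈ N, x ≠ 1 → h * x = x * h → h = 1 := by
  intro h hh x hx hx1 hcomm
  by_contra hne
  have hdisj := reg_disj hH
  have hhN : h ∉ N := fun hN => hne (hdisj h hN hh)
  have hnorm : ∀ (a : G) (n : G), n ∈ N → a⁻¹ * n * a * n⁻¹ ∈ N := by
    intro a n hn
    have h1 := (inferInstance : N.Normal).conj_mem n hn a⁻¹
    rw [inv_inv] at h1
    exact N.mul_mem h1 (N.inv_mem hn)
  let φ : N → N := fun n => ⟨h⁻¹ * n * h * (n : G)⁻¹, hnorm h n n.2⟩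
  have hsurj : Function.Surjective φ := by
    rintro ⟨n0, hn0⟩
    obtain ⟨g, hg⟩ := isConj_iff.mp (D.c2 h hhN n0 hn0)
    obtain ⟨⟨⟨n, hn⟩, ⟨k, hk⟩⟩, rfl⟩ := hH.2 g
    simp only at hg
    set h1 := k * h * k⁻¹ with hh1
    have hh1H : h1 ∈ H := H.mul_mem (H.mul_mem hk hh) (H.inv_mem hk)
    have hg' : n * h1 * n⁻¹ = h * n0 := by rw [← hg, hh1]; group
    have hm : h1⁻¹ * n * h1 * n⁻¹ ∈ N := hnorm h1 n hn
    have e0 : h1 * (h1⁻¹ * n * h1 * n⁻¹) = h * n0 := by rw [← hg']; group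
    have e1 : h⁻¹ * h1 = n0 * (h1⁻¹ * n * h1 * n⁻¹)⁻¹ := by
      rw [eq_mul_inv_iff_mul_eq, mul_assoc, e0]; group
    have e2 : h⁻¹ * h1 = 1 :=
      hdisj _ (e1 ▸ N.mul_mem hn0 (N.inv_mem hm)) (H.mul_mem (H.inv_mem hh) hh1H)
    have e3 : h1 = h := by rw [inv_mul_eq_one] at e2; exact e2.symm
    refine ⟨⟨n, hn⟩, Subtype.ext ?_⟩
    change h⁻¹ * n * h * n⁻¹ = n0
    rw [e3] at hg'
    calc h⁻¹ * n * h * n⁻¹ = h⁻¹ * (n * h * n⁻¹) := by group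
      _ = n0 := by rw [hg']; group
  have hinj := Finite.injective_iff_surjective.mpr hsurj
  have h1 : φ ⟨x, hx⟩ = φ 1 := by
    apply Subtype.ext
    change h⁻¹ * x * h * x⁻¹ = h⁻¹ * 1 * h * 1⁻¹
    rw [mul_assoc h⁻¹ x h, ← hcomm]; group
  exact hx1 (congrArg Subtype.val (hinj h1))

end Cfsg.Agent.Lib.Helper72.Gag
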