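import Cfsg.Agent.Lib.Helper71.Gag.Basic
import Cfsg.Agent.Lib.Helper72.GagReg

set_option autoImplicit false

namespace Cfsg.Agent.Lib.Helper72.Gag

open Cfsg.Agent.Lib.Helper71.Gag
open scoped Pointwise

theorem frob_mem_conj {G : Type*} [Group G] (H : Subgroup G) (g x : G) :
    x ∈ MulAut.conj g • H ↔ ∃ k ∈ H, g * k * g⁻¹ = x := by
  rw [Subgroup.mem_smul_pointwise_iff_exists]
  simp only [MulAut.smul_def, MulAut.conj_apply]

theorem frob {G : Type*} [Group G] [Finite G] (hG : 2 < Nat.card G) {p : ℕ} [Fact p.Prime]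
    {N : Subgroup G} [N.Normal] (D : Dat p N) (H : Subgroup G) (hH : N.IsComplement' H) :
    Cfsg.IsFrobeniusComplement H ∧ Cfsg.frobeniusKernel H = (N : Set G) ∧
      Nat.card H + 1 = Nat.card N := by
  classical
  have hdisj := reg_disj hH
  have hreg := reg D H hH
  have hab := ab D
  have hNn : N.Normal := inferInstance
  obtain ⟨x0, hx0, hx01⟩ : ∃ x0 ∈ N, x0 ≠ 1 := by
    by_contra hcon
    push Not at hcon
    exact D.ne ((Subgroup.eq_bot_iff_forall N).mpr hcon)
  -- the cardinality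
  have hcard : Nat.card H + 1 = Nat.card N := by
    let ψ : H → {n : N // n ≠ 1} := fun h =>
      ⟨⟨h * x0 * (h : G)⁻¹, hNn.conj_mem x0 hx0 h⟩, by
        intro h1
        have h2 : (h : G) * x0 * (h : G)⁻¹ = 1 := congrArg Subtype.val h1
        apply hx01
        rw [mul_inv_eq_one] at h2
        exact mul_left_cancel (h2.trans (mul_one _).symm)⟩
    have hbij : Function.Bijective ψ := by
      constructor
      · intro a b hab'
        have h1 : (a : G) * x0 * (a : G)⁻¹ = (b : G) * x0 * (b : G)⁻¹ :=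
          congrArg (fun z : {n : N // n ≠ 1} => ((z : N) : G)) hab'
        have h2 : ((b : G)⁻¹ * a) * x0 = x0 * ((b : G)⁻¹ * a) := by
          have : (b : G)⁻¹ * ((a : G) * x0 * (a : G)⁻¹) * a = (b : G)⁻¹ * ((b : G) * x0 * (b : G)⁻¹) * a := by
            rw [h1]
          calc ((b : G)⁻¹ * a) * x0 = (b : G)⁻¹ * ((a : G) * x0 * (a : G)⁻¹) * a := by group
            _ = (b : G)⁻¹ * ((b : G) * x0 * (b : G)⁻¹) * a := this
            _ = x0 * ((b : G)⁻¹ * a) := by group
        have h3 := hreg _ (H.mul_mem (H.inv_mem b.2) a.2) x0 hx0 hx01 h2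
        apply Subtype.ext
        rw [inv_mul_eq_one] at h3
        exact h3.symm
      · rintro ⟨⟨y, hy⟩, hy1⟩
        have hy1' : y ≠ 1 := fun h => hy1 (Subtype.ext h)
        obtain ⟨g, hg⟩ := isConj_iff.mp (D.c1 x0 hx0 y hy hx01 hy1')
        obtain ⟨⟨⟨n, hn⟩, ⟨k, hk⟩⟩, rfl⟩ := hH.2 g
        simp only at hg
        refine ⟨⟨k, hk⟩, ?_⟩
        apply Subtype.ext
        apply Subtype.ext
        change k * x0 * k⁻¹ = y
        have hk0 : k * x0 * k⁻¹ ∈ N := hNn.conj_mem x0 hx0 k
        have h1 : n * (k * x0 * k⁻¹) = (k * x0 * k⁻¹) * n := hab n hn _ hk0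
        rw [← hg]
        calc k * x0 * k⁻¹ = (k * x0 * k⁻¹) * n * n⁻¹ := by group
          _ = n * (k * x0 * k⁻¹) * n⁻¹ := by rw [h1]
          _ = n * k * x0 * (n * k)⁻¹ := by group
    have h1 : Nat.card H = Nat.card {n : N // n ≠ 1} := Nat.card_congr (Equiv.ofBijective ψ hbij)
    have : Fintype N := Fintype.ofFinite N
    have h2 : Nat.card {n : N // n ≠ 1} = Nat.card N - 1 := by
      rw [Nat.card_eq_fintype_card, Nat.card_eq_fintype_card]
      have := Fintype.card_subtype_compl (fun n : N => n = 1)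
      rw [Fintype.card_subtype_eq] at this
      exact this
    have h3 : 0 < Nat.card N := Nat.card_pos
    omega
  have hmul := hH.card_mul_card
  refine ⟨⟨?_, ?_, ?_⟩, ?_, hcard⟩
  · intro hb
    rw [hb, Subgroup.card_bot] at hcard hmul
    omega
  · intro ht
    exact hx01 (hdisj x0 hx0 (ht ▸ Subgroup.mem_top x0))
  · intro g hg
    rw [eq_bot_iff]
    rintro y ⟨hyH, hyc⟩
    rw [Subgroup.mem_bot]
    obtain ⟨k', hk', hy⟩ := (frob_mem_conj H g y).mp hyc
    obtain ⟨⟨⟨n, hn⟩, ⟨k, hk⟩⟩, rfl⟩ := hH.2 g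
    simp only at hy hg
    have hn1 : n ≠ 1 := by
      rintro rfl
      apply hg
      rw [one_mul]; exact hk
    set k2 := k * k' * k⁻¹ with hk2
    have hk2H : k2 ∈ H := H.mul_mem (H.mul_mem hk hk') (H.inv_mem hk)
    have hy' : y = n * k2 * n⁻¹ := by rw [← hy, hk2]; group
    have h1 : y * k2⁻¹ ∈ N := by
      have : y * k2⁻¹ = n * (k2 * n⁻¹ * k2⁻¹) := by rw [hy']; group
      rw [this]
      exact N.mul_mem hn (hNn.conj_mem _ (N.inv_mem hn) k2)
    have h2 : y * k2⁻¹ = 1 := hdisj _ h1 (H.mul_mem hyH (H.inv_mem hk2H))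
    have h3 : y = k2 := by rwa [mul_inv_eq_one] at h2
    have h4 : k2 * n = n * k2 := by
      have : k2 = n * k2 * n⁻¹ := h3.symm.trans hy'
      calc k2 * n = (n * k2 * n⁻¹) * n := by rw [← this]
        _ = n * k2 := by group
    rw [h3]
    exact hreg k2 hk2H n hn hn1 h4
  · ext x
    constructor
    · rintro (rfl | hx)
      · exact N.one_mem
      · by_contra hxN
        have hxN' : x ∉ N := hxN
        obtain ⟨⟨⟨n, hn⟩, ⟨k, hk⟩⟩, rfl⟩ := hH.2 x
        simp only at hx hxN'
        have hkN : k ∉ N := fun h => hxN' (N.mul_mem hn h)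
        have hn' : k⁻¹ * n * k ∈ N := by
          have := hNn.conj_mem n hn k⁻¹
          rwa [inv_inv] at this
        obtain ⟨g, hg⟩ := isConj_iff.mp (D.c2 k hkN _ hn')
        apply hx g
        rw [frob_mem_conj]
        exact ⟨k, hk, by rw [hg]; group⟩
    · intro hx
      have hx' : x ∈ N := hx
      by_cases hx1 : x = 1
      · exact Or.inl hx1
      · right
        intro g hg
        obtain ⟨k, hk, hgk⟩ := (frob_mem_conj H g x).mp hg
        have hkN : k ∈ N := by
          have := hNn.conj_mem x hx' g⁻¹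
          rw [inv_inv, ← hgk] at this
          have e : g⁻¹ * (g * k * g⁻¹) * g = k := by group
          rwa [e] at this
        have hk1 := hdisj k hkN hk
        apply hx1
        rw [← hgk, hk1]; group

end Cfsg.Agent.Lib.Helper72.Gag
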