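import Cfsg.Agent.Lib.Helper71.Gag.Basic

set_option autoImplicit false

namespace Cfsg.Agent.Lib.Helper72.Gag

open Cfsg.Agent.Lib.Helper71.Gag

/-- the class of a non-identity element of `N` is `N \ {1}`, so `|N| - 1` divides `|G|` -/
theorem odd_dvd {G : Type*} [Group G] [Finite G] {p : ℕ} {N : Subgroup G} [N.Normal]
    (D : Dat p N) : (Nat.card N - 1) ∣ Nat.card G := by
  classical
  have hNn : N.Normal := inferInstance
  obtain ⟨x0, hx0, hx01⟩ : ∃ x0 ∈ N, x0 ≠ 1 := by
    by_contra hcon
    push Not at hcon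
    exact D.ne ((Subgroup.eq_bot_iff_forall N).mpr hcon)
  have horb : MulAction.orbit (ConjAct G) x0 = (N : Set G) \ {1} := by
    ext y
    rw [ConjAct.mem_orbit_conjAct]
    constructor
    · intro h
      obtain ⟨g, hg⟩ := isConj_iff.mp h
      -- g * y * g⁻¹ = x0
      have hy : y = g⁻¹ * x0 * g := by rw [← hg]; group
      refine ⟨?_, ?_⟩
      · have := hNn.conj_mem x0 hx0 g⁻¹
        rw [inv_inv] at this
        rw [hy]; exact this
      · intro h1
        have h1' : y = 1 := h1
        apply hx01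
        rw [← hg, h1']; group
    · rintro ⟨hy, hy1⟩
      exact D.c1 y hy x0 hx0 (fun h => hy1 h) hx01
  have h1 := MulAction.index_stabilizer (ConjAct G) x0
  rw [horb] at h1
  have h2 : ((N : Set G) \ {1}).ncard = Nat.card N - 1 := by
    rw [Set.ncard_sdiff_singleton_of_mem (N.one_mem)]
    rfl
  rw [h2] at h1
  rw [← h1]
  exact Subgroup.index_dvd_card _

theorem odd {G : Type*} [Group G] [Finite G] {p : ℕ} [Fact p.Prime] {N : Subgroup G} [N.Normal]
    (D : Dat p N) (hp : p ≠ 2) (hc : N = Cfsg.pCore p G) : ∃ H : Subgroup G, N.IsComplement' H := by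
  have hpp : p.Prime := Fact.out
  have hNn : N.Normal := inferInstance
  have hab := ab D
  have hfpf := fpf D
  have hcn := cn D hc
  obtain ⟨k, hk⟩ := IsPGroup.iff_card.mp D.pg
  have hpodd : Odd p := hpp.odd_of_ne_two hp
  have hNodd : Odd (Nat.card N) := by rw [hk]; exact hpodd.pow
  have h2G : 2 ∣ Nat.card G := by
    refine dvd_trans ?_ (odd_dvd D)
    obtain ⟨m, hm⟩ := hNodd
    rw [hm]
    exact ⟨m, by omega⟩
  have : Fact (Nat.Prime 2) := ⟨Nat.prime_two⟩
  obtain ⟨t, ht⟩ := exists_prime_orderOf_dvd_card' 2 h2G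
  have ht1 : t ≠ 1 := by
    rintro rfl
    rw [orderOf_one] at ht
    omega
  have htt : t * t = 1 := by
    have := pow_orderOf_eq_one t
    rwa [ht, sq] at this
  have htinv : t⁻¹ = t := inv_eq_of_mul_eq_one_left htt
  have htcop : (orderOf t).Coprime p := by
    rw [ht]
    exact (Nat.coprime_primes Nat.prime_two hpp).mpr (Ne.symm hp)
  -- t centralises no non-identity element of N
  have hfree : ∀ z ∈ N, t * z = z * t → z = 1 := by
    intro z hz hcomm
    by_contra hz1
    exact ht1 (hfpf z hz hz1 t hcomm htcop)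
  -- t inverts N
  have hinv : ∀ n ∈ N, t * n * t⁻¹ = n⁻¹ := by
    intro n hn
    have hn' : t * n * t⁻¹ ∈ N := hNn.conj_mem n hn t
    have hm : n * (t * n * t⁻¹) = 1 := by
      apply hfree _ (N.mul_mem hn hn')
      have e1 : t * (n * (t * n * t⁻¹)) = (t * n * t⁻¹) * n * t := by
        rw [htinv]
        calc t * (n * (t * n * t)) = t * n * t * n * t := by group
          _ = t * n * t * n * t := rfl
      rw [e1, ← hab n hn _ hn']
    exact eq_inv_of_mul_eq_one_right hm
  refine ⟨Subgroup.centralizer {t}, ?_⟩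
  apply Subgroup.isComplement'_of_disjoint_and_mul_eq_univ
  · rw [Subgroup.disjoint_def]
    intro z hzN hzC
    apply hfree z hzN
    rw [Subgroup.mem_centralizer_singleton_iff] at hzC
    exact hzC.symm
  · rw [Set.eq_univ_iff_forall]
    intro g
    set c := g * t * g⁻¹ * t⁻¹ with hcdef
    have hinv' : ∀ n ∈ N, (g * t * g⁻¹) * n * (g * t * g⁻¹)⁻¹ = n⁻¹ := by
      intro n hn
      have hn' : g⁻¹ * n * g ∈ N := by
        have := hNn.conj_mem n hn g⁻¹
        rwa [inv_inv] at this
      have h1 := hinv _ hn'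
      calc (g * t * g⁻¹) * n * (g * t * g⁻¹)⁻¹ = g * (t * (g⁻¹ * n * g) * t⁻¹) * g⁻¹ := by group
        _ = g * (g⁻¹ * n * g)⁻¹ * g⁻¹ := by rw [h1]
        _ = n⁻¹ := by group
    have hcN : c ∈ N := by
      apply hcn
      intro n hn
      have h1 : t⁻¹ * n * t = n⁻¹ := by
        have := hinv n hn
        rw [htinv] at this ⊢
        exact this
      have h2 := hinv' n⁻¹ (N.inv_mem hn)
      rw [inv_inv] at h2
      -- c n c⁻¹ = n
      have h3 : c * n * c⁻¹ = n := by
        calc c * n * c⁻¹ = (g * t * g⁻¹) * (t⁻¹ * n * t) * (g * t * g⁻¹)⁻¹ := by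
              rw [hcdef]; group
          _ = n := by rw [h1, h2]
      calc c * n = c * n * c⁻¹ * c := by group
        _ = n * c := by rw [h3]
    obtain ⟨m, hm⟩ := hNodd
    set n := c ^ (m + 1) with hn
    have hnN : n ∈ N := N.pow_mem hcN _
    have hcpow : c ^ Nat.card N = 1 := by
      have := pow_card_eq_one' (G := N) (x := ⟨c, hcN⟩)
      exact congrArg Subtype.val this
    have hnn : n * n = c := by
      rw [hn, ← pow_add]
      have : m + 1 + (m + 1) = Nat.card N + 1 := by omega
      rw [this, pow_succ, hcpow, one_mul]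
    have hntn : n * t * n⁻¹ = g * t * g⁻¹ := by
      have h1 := hinv n⁻¹ (N.inv_mem hnN)
      rw [inv_inv] at h1
      calc n * t * n⁻¹ = n * (t * n⁻¹ * t⁻¹) * t := by group
        _ = n * n * t := by rw [h1]
        _ = c * t := by rw [hnn]
        _ = g * t * g⁻¹ := by rw [hcdef]; group
    refine ⟨n, hnN, n⁻¹ * g, ?_, by simp⟩
    change n⁻¹ * g ∈ Subgroup.centralizer {t}
    rw [Subgroup.mem_centralizer_singleton_iff]
    calc n⁻¹ * g * t = n⁻¹ * (g * t * g⁻¹) * g := by group
      _ = n⁻¹ * (n * t * n⁻¹) * g := by rw [hntn]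
      _ = t * (n⁻¹ * g) := by group

end Cfsg.Agent.Lib.Helper72.Gag
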