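import Mathlib
import Cfsg.Agent.Lib.Helper52.Subn

set_option autoImplicit false

namespace Cfsg.Agent.Lib.Helper72

open Cfsg Cfsg.Agent.Lib.Helper52

variable {G : Type*} [Group G]

/-- normalizers grow in `p`-groups, ambient form -/
theorem lt_inf_normalizer' [Finite G] {p : ℕ} [Fact p.Prime] {R A : Subgroup G}
    (hR : IsPGroup p R) (hA : A < R) : A < R ⊓ Subgroup.normalizer (A : Set G) := by
  have hnil : Group.IsNilpotent R := hR.isNilpotent
  have hnc : NormalizerCondition R := Group.normalizerCondition_of_isNilpotent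
  have h1 : A.subgroupOf R < ⊤ := by
    rw [lt_top_iff_ne_top, Ne, Subgroup.subgroupOf_eq_top]
    exact fun h => absurd (le_antisymm hA.le h) hA.ne
  have h2 := hnc _ h1
  rw [← Subgroup.subgroupOf_normalizer_eq hA.le] at h2
  refine lt_of_le_of_ne (le_inf hA.le Subgroup.le_normalizer) ?_
  intro h3
  apply h2.ne
  ext x
  rw [Subgroup.mem_subgroupOf, Subgroup.mem_subgroupOf]
  constructor
  · intro hx; exact Subgroup.le_normalizer hx
  · intro hx
    rw [h3]
    exact ⟨x.2, hx⟩

/-- For a `p`-subgroup `H`: `g` lies in the subnormalizer of `H` iff `H` lies in a `p`-subgroup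
normalized by `g`. -/
theorem subN_iff [Finite G] {p : ℕ} [Fact p.Prime] {H : Subgroup G} (hH : IsPGroup p H) (g : G) :
    (H.subgroupOf (H ⊔ Subgroup.zpowers g)).IsSubnormal ↔
      ∃ V : Subgroup G, H ≤ V ∧ IsPGroup p V ∧ g ∈ Subgroup.normalizer (V : Set G) := by
  set T := H ⊔ Subgroup.zpowers g with hT
  have hHT : H ≤ T := le_sup_left
  have hgT : g ∈ T := (le_sup_right : Subgroup.zpowers g ≤ T) (Subgroup.mem_zpowers g)
  constructor
  · intro h
    have h1 : H.subgroupOf T ≤ Cfsg.pCore p T := le_pCore_of_isSubnormal h (isPGroup_subgroupOf hH)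
    refine ⟨Cfsg.pCoreOf p T, ?_, pCoreOf_isPGroup T, le_normalizer_pCoreOf T hgT⟩
    have h5 := Subgroup.map_mono (f := T.subtype) h1
    rwa [Subgroup.map_subgroupOf_eq_of_le hHT] at h5
  · rintro ⟨V, hHV, hV, hg⟩
    have hTN : T ≤ Subgroup.normalizer (V : Set G) := by
      rw [hT]
      refine sup_le (hHV.trans Subgroup.le_normalizer) ?_
      rw [Subgroup.zpowers_le]; exact hg
    have hn : (V.subgroupOf T).Normal := Subgroup.normal_subgroupOf_of_le_normalizer hTN
    have hle : H.subgroupOf T ≤ V.subgroupOf T := Subgroup.subgroupOf_mono T hHV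
    have hp : IsPGroup p (V.subgroupOf T) := isPGroup_subgroupOf hV
    have hnil : Group.IsNilpotent (V.subgroupOf T) := hp.isNilpotent
    exact Subgroup.IsSubnormal.trans hle (isSubnormal_of_isNilpotent _) hn.isSubnormal

/-- Every `p`-subgroup `V` lies in a radical `p`-subgroup `R` with `N(V) ≤ N(R)`. -/
theorem exists_radical [Finite G] {p : ℕ} [Fact p.Prime] (V : Subgroup G) (hV : IsPGroup p V) :
    ∃ R : Subgroup G, V ≤ R ∧ Cfsg.pCoreOf p (Subgroup.normalizer (R : Set G)) = R ∧
      Subgroup.normalizer (V : Set G) ≤ Subgroup.normalizer (R : Set G) := by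
  induction' h : Nat.card G - Nat.card V using Nat.strong_induction_on with n ih generalizing V
  set V' := Cfsg.pCoreOf p (Subgroup.normalizer (V : Set G)) with hV'
  have hle : V ≤ V' := le_pCoreOf Subgroup.le_normalizer le_rfl hV
  by_cases heq : V' = V
  · exact ⟨V, le_rfl, heq, le_rfl⟩
  · have hlt : V < V' := lt_of_le_of_ne hle (Ne.symm heq)
    have hc : Nat.card V < Nat.card V' :=
      Set.ncard_lt_ncard (s := (V : Set G)) (SetLike.coe_ssubset_coe.2 hlt) (Set.toFinite _)
    have hc' : Nat.card V' ≤ Nat.card G := Subgroup.card_le_card_group V'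
    obtain ⟨R, h1, h2, h3⟩ := ih (Nat.card G - Nat.card V') (by omega) V'
      (pCoreOf_isPGroup _) rfl
    exact ⟨R, hle.trans h1, h2, (le_normalizer_pCoreOf _).trans h3⟩

end Cfsg.Agent.Lib.Helper72
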